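import Mathlib
import Cfsg.Agent.Lib.Helper5.CS4.Defs

/-!
# CS4 (S4146), package [CU]: every `q'`-element centralizes `U`
-/

set_option autoImplicit false

namespace Cfsg.Agent.Lib.Helper76.CS4

open Cfsg.Agent.Lib.Helper5.CS4

universe u

/-- Class sizes are conjugation invariant. -/
theorem cu_cidx_conj {G : Type u} [Group G] (g w : G) : cidx (g * w * g⁻¹) = cidx w := by
  have h : Subgroup.centralizer ({g * w * g⁻¹} : Set G) =
      (Subgroup.centralizer ({w} : Set G)).map (MulAut.conj g).toMonoidHom := by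
    ext y
    rw [Subgroup.mem_map_equiv, Subgroup.mem_centralizer_singleton_iff,
      Subgroup.mem_centralizer_singleton_iff]
    simp only [MulAut.conj_symm_apply]
    constructor
    · intro h
      calc g⁻¹ * y * g * w = g⁻¹ * (y * (g * w * g⁻¹)) * g := by group
        _ = g⁻¹ * ((g * w * g⁻¹) * y) * g := by rw [h]
        _ = w * (g⁻¹ * y * g) := by group
    · intro h
      calc y * (g * w * g⁻¹) = g * ((g⁻¹ * y * g) * w) * g⁻¹ := by group
        _ = g * (w * (g⁻¹ * y * g)) * g⁻¹ := by rw [h]
        _ = g * w * g⁻¹ * y := by group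
  show (Subgroup.centralizer ({g * w * g⁻¹} : Set G)).index =
    (Subgroup.centralizer ({w} : Set G)).index
  rw [h]
  exact Subgroup.index_map_equiv _ (MulAut.conj g)

/-- The class size of an element of a subgroup `K`, computed in `K`, is a relative index. -/
theorem cu_cidx_sub {G : Type u} [Group G] (K : Subgroup G) (x : G) (hx : x ∈ K) :
    cidx (⟨x, hx⟩ : ↥K) = (Subgroup.centralizer ({x} : Set G)).relIndex K := by
  have h : Subgroup.centralizer ({(⟨x, hx⟩ : ↥K)} : Set ↥K) =
      (Subgroup.centralizer ({x} : Set G)).subgroupOf K := by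
    ext y
    rw [Subgroup.mem_subgroupOf, Subgroup.mem_centralizer_singleton_iff,
      Subgroup.mem_centralizer_singleton_iff]
    constructor
    · intro h; exact congrArg Subtype.val h
    · intro h; exact Subtype.ext h
  show (Subgroup.centralizer ({(⟨x, hx⟩ : ↥K)} : Set ↥K)).index = _
  rw [h]; rfl

/-- [CU] every `q'`-element centralizes `U`. -/
theorem pkgCU (hE0 : PkgE0.{u}) (hQC : PkgQC.{u}) (hFix : PkgFix.{u}) : PkgCU.{u} := by
  intro G _ _ n q e U a₀ hS hE1
  have hq := hS.hq
  obtain ⟨hn1, hm1, hcop, hrange⟩ := hS.ctx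
  have he : e ≠ 0 := by rintro rfl; simp at hm1
  have hqn : ¬ q ∣ n := by
    intro h
    have h' : q ∣ Nat.gcd n (q ^ e) := Nat.dvd_gcd h (dvd_pow_self q he)
    rw [hcop] at h'
    exact hq.one_lt.ne' (Nat.dvd_one.mp h')
  have hcidx : ∀ x : G, cidx x = 1 ∨ cidx x = n ∨ cidx x = q ^ e ∨ cidx x = n * q ^ e := by
    intro x
    have hx : cidx x ∈ Set.range (fun x : G => cidx x) := ⟨x, rfl⟩
    rw [hrange] at hx
    simpa using hx
  have hcardU : (Nat.card U).Coprime (q ^ e) := by
    apply Nat.Coprime.pow_right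
    apply Nat.Coprime.symm
    rw [Nat.Prime.coprime_iff_not_dvd hq]
    intro hdvd
    have : Fact q.Prime := ⟨hq⟩
    obtain ⟨u, hu⟩ := exists_prime_orderOf_dvd_card' q hdvd
    have h1 := ((hS.U_iff (u : G)).mp u.2).2
    rw [Subgroup.orderOf_coe, hu] at h1
    exact hq.one_lt.ne' ((Nat.coprime_self q).mp h1)
  -- the case of prime power order
  have hprim : ∀ (x : G) (t k : ℕ), t.Prime → t ≠ q → orderOf x = t ^ k →
      ∀ u ∈ U, x * u = u * x := by
    intro x t k ht htq hord
    have hxq : (orderOf x).Coprime q := by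
      rw [hord]; exact Nat.Coprime.pow_left k ((Nat.coprime_primes ht hq).mpr htq)
    rcases hcidx x with h1 | h1 | h1 | h1
    · intro u hu
      exact hS.U_comm x ((hS.U_iff x).mpr ⟨Or.inl h1, hxq⟩) u hu
    · exact (htq (hS.hTn x t k ht hord h1)).elim
    · intro u hu
      exact hS.U_comm x ((hS.U_iff x).mpr ⟨Or.inr h1, hxq⟩) u hu
    · by_contra hnot
      obtain ⟨w0, hw0U, hw0⟩ := hS.w_ex
      have htw : ¬ t ∣ cidx w0 := by
        rw [hw0]; intro h
        exact htq ((Nat.prime_dvd_prime_iff_eq ht hq).mp (ht.dvd_of_dvd_pow h))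
      obtain ⟨g, hg⟩ := hFix x w0 t k ht hord htw
      have hw'U : g * w0 * g⁻¹ ∈ U := hS.U_normal.conj_mem w0 hw0U g
      have hw'c : cidx (g * w0 * g⁻¹) = q ^ e := by rw [cu_cidx_conj, hw0]
      generalize g * w0 * g⁻¹ = w' at hg hw'U hw'c
      have hE0x := hE0 n (q ^ e) hS.ctx x t k ht hord h1
      -- no `q`-element of class size `n` commutes with `x`
      have hA : ∀ (y : G) (j : ℕ), orderOf y = q ^ j → cidx y = n → y * x = x * y → False := by
        intro y j hy hyn hyx
        rcases hS.dich y ⟨j, hy⟩ hyn with hc | hz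
        · exact hnot (hQC n (q ^ e) hS.ctx U hS.U_normal hcardU y q j hq hy hyn hc x hyx.symm hxq)
        · have hyt : (orderOf y).Coprime t := by
            rw [hy]; exact Nat.Coprime.pow_left j ((Nat.coprime_primes hq ht).mpr (Ne.symm htq))
          have h2 : w' * y = y * w' := hE0x y hyx hyt w' hg.symm
          have h3 : w' ∈ Subgroup.center G := hz w' hw'U h2.symm
          have h4 : cidx w' = 1 := by
            show (Subgroup.centralizer ({w'} : Set G)).index = 1
            rw [Subgroup.centralizer_eq_top_iff_subset.mpr (Set.singleton_subset_iff.mpr h3),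
              Subgroup.index_top]
          rw [hw'c] at h4
          omega
      -- `C(x) ≤ C(w')`
      have hle : Subgroup.centralizer ({x} : Set G) ≤ Subgroup.centralizer ({w'} : Set G) := by
        intro c hc
        rw [Subgroup.mem_centralizer_singleton_iff] at hc ⊢
        exact hE1 x t k ht htq hord h1 c w' hc hg.symm
      have hrel : (Subgroup.centralizer ({x} : Set G)).relIndex
          (Subgroup.centralizer ({w'} : Set G)) = n := by
        have h5 := Subgroup.relIndex_mul_index hle
        have h6 : (Subgroup.centralizer ({w'} : Set G)).index = q ^ e := hw'c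
        have h7 : (Subgroup.centralizer ({x} : Set G)).index = n * q ^ e := h1
        rw [h6, h7] at h5
        exact Nat.eq_of_mul_eq_mul_right (by omega) h5
      have ha₀K : a₀ ∈ Subgroup.centralizer ({w'} : Set G) := by
        rw [Subgroup.mem_centralizer_singleton_iff]
        exact hS.a₀_cent w' hw'U
      have hxK : x ∈ Subgroup.centralizer ({w'} : Set G) := by
        rw [Subgroup.mem_centralizer_singleton_iff]
        exact hg
      obtain ⟨k₀, hk₀⟩ := hS.a₀_order
      have hqw : ¬ q ∣ cidx (⟨x, hxK⟩ : ↥(Subgroup.centralizer ({w'} : Set G))) := by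
        rw [cu_cidx_sub, hrel]; exact hqn
      obtain ⟨c, hc⟩ := hFix (⟨a₀, ha₀K⟩ : ↥(Subgroup.centralizer ({w'} : Set G))) ⟨x, hxK⟩ q k₀ hq
        (by rw [Subgroup.orderOf_mk]; exact hk₀) hqw
      have hc' : a₀ * ((c : G) * x * (c : G)⁻¹) = ((c : G) * x * (c : G)⁻¹) * a₀ := by
        have := congrArg Subtype.val hc
        simpa using this
      apply hA ((c : G)⁻¹ * a₀ * (c : G)) k₀
      · have h8 := (MulAut.conj (c : G)⁻¹).orderOf_eq a₀
        simp only [MulAut.conj_apply, inv_inv] at h8
        rw [h8, hk₀]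
      · have h8 := cu_cidx_conj (c : G)⁻¹ a₀
        rw [inv_inv] at h8
        rw [h8, hS.a₀_type]
      · calc (c : G)⁻¹ * a₀ * (c : G) * x
            = (c : G)⁻¹ * (a₀ * ((c : G) * x * (c : G)⁻¹)) * (c : G) := by group
          _ = (c : G)⁻¹ * (((c : G) * x * (c : G)⁻¹) * a₀) * (c : G) := by rw [hc']
          _ = x * ((c : G)⁻¹ * a₀ * (c : G)) := by group
  -- the general case, by coprime splitting of the order
  have key : ∀ N : ℕ, ∀ x : G, orderOf x = N → N.Coprime q →
      x ∈ Subgroup.centralizer (U : Set G) := by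
    intro N
    induction N using Nat.recOnPosPrimePosCoprime with
    | prime_pow p k hp hk =>
      intro x hord hcop'
      have hpq : p ≠ q := by
        rintro rfl
        have h' : p ∣ Nat.gcd (p ^ k) p := Nat.dvd_gcd (dvd_pow_self p hk.ne') dvd_rfl
        rw [hcop'] at h'
        exact hp.one_lt.ne' (Nat.dvd_one.mp h')
      rw [Subgroup.mem_centralizer_iff]
      intro u hu
      exact (hprim x p k hp hpq hord u hu).symm
    | zero =>
      intro x hord _
      exact absurd hord (orderOf_pos x).ne'
    | one =>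
      intro x hord _
      rw [orderOf_eq_one_iff] at hord
      rw [hord]; exact Subgroup.one_mem _
    | coprime a b ha hb hab iha ihb =>
      intro x hord hcop'
      have h1 : orderOf (x ^ a) = b := by
        rw [orderOf_pow, hord, Nat.gcd_mul_right_left]
        exact Nat.mul_div_cancel_left b (by omega)
      have h2 : orderOf (x ^ b) = a := by
        rw [orderOf_pow, hord, Nat.gcd_mul_left_left]
        exact Nat.mul_div_cancel a (by omega)
      have hxa := ihb (x ^ a) h1 (Nat.Coprime.coprime_dvd_left (Dvd.intro_left a rfl) hcop')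
      have hxb := iha (x ^ b) h2 (Nat.Coprime.coprime_dvd_left (Dvd.intro b rfl) hcop')
      have hbez := Nat.gcd_eq_gcd_ab a b
      rw [hab] at hbez
      have hx1 : x = (x ^ a) ^ (Nat.gcdA a b) * (x ^ b) ^ (Nat.gcdB a b) := by
        rw [← zpow_natCast x a, ← zpow_natCast x b, ← zpow_mul, ← zpow_mul, ← zpow_add, ← hbez]
        simp
      rw [hx1]
      exact Subgroup.mul_mem _ (Subgroup.zpow_mem _ hxa _) (Subgroup.zpow_mem _ hxb _)
  intro x hx u hu
  have h := key (orderOf x) x rfl hx
  rw [Subgroup.mem_centralizer_iff] at h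
  exact (h u hu).symm

end Cfsg.Agent.Lib.Helper76.CS4
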