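import Mathlib
import Cfsg.Agent.Lib.Helper5.CS4.Defs
import Cfsg.Agent.Lib.Helper76.CS4.CU

/-!
# CS4 (S4146), package [NCS]: `C(w)` has class sizes `1` and `n` only
-/

set_option autoImplicit false

namespace Cfsg.Agent.Lib.Helper76.CS4

open Cfsg.Agent.Lib.Helper5.CS4

universe u

/-- If coprime powers of `x` lie in a subgroup, so does `x`. -/
theorem ncs_split_mem {G : Type u} [Group G] (H : Subgroup G) (x : G) (a b : ℕ)
    (hab : a.Coprime b) (ha : x ^ a ∈ H) (hb : x ^ b ∈ H) : x ∈ H := by
  have hbez := Nat.gcd_eq_gcd_ab a b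
  rw [hab] at hbez
  have hx1 : x = (x ^ a) ^ (Nat.gcdA a b) * (x ^ b) ^ (Nat.gcdB a b) := by
    rw [← zpow_natCast x a, ← zpow_natCast x b, ← zpow_mul, ← zpow_mul, ← zpow_add, ← hbez]
    simp
  rw [hx1]
  exact Subgroup.mul_mem _ (Subgroup.zpow_mem _ ha _) (Subgroup.zpow_mem _ hb _)

/-- Splitting an element into its `q`-part and `q'`-part (as powers). -/
theorem ncs_qsplit {G : Type u} [Group G] [Finite G] (x : G) {q : ℕ} (hq : q.Prime) :
    ∃ a m' : ℕ, m'.Coprime q ∧ m'.Coprime (q ^ a) ∧ orderOf (x ^ m') = q ^ a ∧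
      orderOf (x ^ (q ^ a)) = m' := by
  obtain ⟨a, m', hndvd, hord⟩ :=
    Nat.exists_eq_pow_mul_and_not_dvd (orderOf_pos x).ne' q hq.one_lt.ne'
  have hm'pos : 0 < m' := by
    rcases Nat.eq_zero_or_pos m' with h | h
    · subst h
      exact absurd (dvd_zero q) hndvd
    · exact h
  have hcop : m'.Coprime q := ((Nat.Prime.coprime_iff_not_dvd hq).mpr hndvd).symm
  refine ⟨a, m', hcop, Nat.Coprime.pow_right a hcop, ?_, ?_⟩
  · rw [orderOf_pow, hord, Nat.gcd_mul_left_left]
    exact Nat.mul_div_cancel _ hm'pos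
  · rw [orderOf_pow, hord, Nat.gcd_mul_right_left]
    exact Nat.mul_div_cancel_left _ (pow_pos hq.pos a)

/-- [NCS] -/
theorem pkgNcs (hCop : PkgCop.{u}) (hFix : PkgFix.{u}) : PkgNcs.{u} := by
  intro G _ _ n q e U a₀ hS hE1 hCU hex w hwU hw x' hx'w
  have hq := hS.hq
  obtain ⟨hn1, hm1, hcop, hrange⟩ := hS.ctx
  have he : e ≠ 0 := by rintro rfl; simp at hm1
  have hqn : ¬ q ∣ n := by
    intro h
    have h' : q ∣ Nat.gcd n (q ^ e) := Nat.dvd_gcd h (dvd_pow_self q he)
    rw [hcop] at h'
    exact hq.one_lt.ne' (Nat.dvd_one.mp h')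
  have hcidx : ∀ x : G, cidx x = 1 ∨ cidx x = n ∨ cidx x = q ^ e ∨ cidx x = n * q ^ e := by
    intro x
    have hx : cidx x ∈ Set.range (fun x : G => cidx x) := ⟨x, rfl⟩
    rw [hrange] at hx
    simpa using hx
  have hrel : ∀ z : G,
      Subgroup.centralizer ({z} : Set G) ≤ Subgroup.centralizer ({w} : Set G) →
      cidx z = n * q ^ e →
      (Subgroup.centralizer ({z} : Set G)).relIndex (Subgroup.centralizer ({w} : Set G)) = n := by
    intro z hle hz
    have h5 := Subgroup.relIndex_mul_index hle
    have h6 : (Subgroup.centralizer ({w} : Set G)).index = q ^ e := hw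
    have h7 : (Subgroup.centralizer ({z} : Set G)).index = n * q ^ e := hz
    rw [h6, h7] at h5
    exact Nat.eq_of_mul_eq_mul_right (by omega) h5
  have hab_le : ∀ z : G, (∀ g h : G, g * z = z * g → h * z = z * h → g * h = h * g) →
      (orderOf z).Coprime q →
      Subgroup.centralizer ({z} : Set G) ≤ Subgroup.centralizer ({w} : Set G) := by
    intro z hz hzq c hc
    rw [Subgroup.mem_centralizer_singleton_iff] at hc ⊢
    exact hz c w hc (hCU z hzq w hwU).symm
  obtain ⟨x₀, t₀, k₀, ht₀, ht₀q, hx₀ord, hx₀⟩ := hex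
  have ht₀cop : (t₀ ^ k₀).Coprime q :=
    Nat.Coprime.pow_left k₀ ((Nat.coprime_primes ht₀ hq).mpr ht₀q)
  have hx₀q : (orderOf x₀).Coprime q := by rw [hx₀ord]; exact ht₀cop
  have hx₀le := hab_le x₀ (hE1 x₀ t₀ k₀ ht₀ ht₀q hx₀ord hx₀) hx₀q
  have hx₀rel := hrel x₀ hx₀le hx₀
  have hx₀K : x₀ ∈ Subgroup.centralizer ({w} : Set G) := by
    rw [Subgroup.mem_centralizer_singleton_iff]; exact hCU x₀ hx₀q w hwU
  -- every `q`-element of `C(w)` centralizes `U`
  have hQ : ∀ (c : G) (a : ℕ), c * w = w * c → orderOf c = q ^ a → ∀ u ∈ U, c * u = u * c := by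
    intro c a hcw hca u hu
    have hcK : c ∈ Subgroup.centralizer ({w} : Set G) :=
      Subgroup.mem_centralizer_singleton_iff.mpr hcw
    have hqw : ¬ q ∣ cidx (⟨x₀, hx₀K⟩ : ↥(Subgroup.centralizer ({w} : Set G))) := by
      rw [cu_cidx_sub, hx₀rel]; exact hqn
    obtain ⟨g, hg⟩ := hFix (⟨c, hcK⟩ : ↥(Subgroup.centralizer ({w} : Set G))) ⟨x₀, hx₀K⟩ q a hq
      (by rw [Subgroup.orderOf_mk]; exact hca) hqw
    have hg' : c * ((g : G) * x₀ * (g : G)⁻¹) = ((g : G) * x₀ * (g : G)⁻¹) * c := by
      have := congrArg Subtype.val hg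
      simpa using this
    have ho : orderOf ((g : G) * x₀ * (g : G)⁻¹) = t₀ ^ k₀ := by
      have h8 := (MulAut.conj (g : G)).orderOf_eq x₀
      simp only [MulAut.conj_apply] at h8
      rw [h8, hx₀ord]
    have hc1 : cidx ((g : G) * x₀ * (g : G)⁻¹) = n * q ^ e := by rw [cu_cidx_conj, hx₀]
    have hoq : (orderOf ((g : G) * x₀ * (g : G)⁻¹)).Coprime q := by rw [ho]; exact ht₀cop
    exact hE1 _ t₀ k₀ ht₀ ht₀q ho hc1 c u hg' (hCU _ hoq u hu).symm
  -- every element of `C(w)` centralizes `U`
  have hN : ∀ c : G, c * w = w * c → ∀ u ∈ U, c * u = u * c := by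
    intro c hcw
    obtain ⟨a, m', hm'q, hm'qa, ho1, ho2⟩ := ncs_qsplit c hq
    have h1 : c ^ m' ∈ Subgroup.centralizer (U : Set G) := by
      rw [Subgroup.mem_centralizer_iff]
      intro u hu
      have hcomm : c ^ m' * w = w * c ^ m' := (Commute.pow_left (show Commute c w from hcw) m').eq
      exact (hQ (c ^ m') a hcomm ho1 u hu).symm
    have h2 : c ^ (q ^ a) ∈ Subgroup.centralizer (U : Set G) := by
      rw [Subgroup.mem_centralizer_iff]
      intro u hu
      exact (hCU (c ^ (q ^ a)) (by rw [ho2]; exact hm'q) u hu).symm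
    have h3 := ncs_split_mem _ c m' (q ^ a) hm'qa h1 h2
    rw [Subgroup.mem_centralizer_iff] at h3
    intro u hu
    exact (h3 u hu).symm
  -- `q'`-elements: in `U`, or of the largest class size with abelian centralizer
  have hpow : ∀ (z : G) (i : ℕ), (cidx (z ^ i) = n * q ^ e ∧
      ∀ g h : G, g * z ^ i = z ^ i * g → h * z ^ i = z ^ i * h → g * h = h * g) →
      (cidx z = n * q ^ e ∧ ∀ g h : G, g * z = z * g → h * z = z * h → g * h = h * g) := by
    rintro z i ⟨hci, hab⟩
    have hle : Subgroup.centralizer ({z} : Set G) ≤ Subgroup.centralizer ({z ^ i} : Set G) := by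
      intro c hc
      rw [Subgroup.mem_centralizer_singleton_iff] at hc ⊢
      exact (Commute.pow_right (show Commute c z from hc) i).eq
    have hdvd : n * q ^ e ∣ cidx z := by
      have h := Subgroup.index_dvd_of_le hle
      rwa [show (Subgroup.centralizer ({z ^ i} : Set G)).index = n * q ^ e from hci] at h
    refine ⟨?_, ?_⟩
    · rcases hcidx z with h | h | h | h
      · rw [h] at hdvd
        have := Nat.le_of_dvd (by omega) hdvd
        nlinarith
      · rw [h] at hdvd
        have := Nat.le_of_dvd (by omega) hdvd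
        nlinarith
      · rw [h] at hdvd
        have := Nat.le_of_dvd (by omega) hdvd
        nlinarith
      · exact h
    · intro g h hg hh
      exact hab g h (Commute.pow_right (show Commute g z from hg) i).eq
        (Commute.pow_right (show Commute h z from hh) i).eq
  have hP : ∀ N : ℕ, ∀ z : G, orderOf z = N → N.Coprime q →
      z ∈ U ∨ (cidx z = n * q ^ e ∧
        ∀ g h : G, g * z = z * g → h * z = z * h → g * h = h * g) := by
    intro N
    induction N using Nat.recOnPosPrimePosCoprime with
    | prime_pow p k hp hk =>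
      intro z hord hcop'
      have hpq : p ≠ q := by
        rintro rfl
        have h' : p ∣ Nat.gcd (p ^ k) p := Nat.dvd_gcd (dvd_pow_self p hk.ne') dvd_rfl
        rw [hcop'] at h'
        exact hp.one_lt.ne' (Nat.dvd_one.mp h')
      rcases hcidx z with h1 | h1 | h1 | h1
      · exact Or.inl ((hS.U_iff z).mpr ⟨Or.inl h1, by rw [hord]; exact hcop'⟩)
      · exact (hpq (hS.hTn z p k hp hord h1)).elim
      · exact Or.inl ((hS.U_iff z).mpr ⟨Or.inr h1, by rw [hord]; exact hcop'⟩)
      · exact Or.inr ⟨h1, hE1 z p k hp hpq hord h1⟩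
    | zero =>
      intro z hord _
      exact absurd hord (orderOf_pos z).ne'
    | one =>
      intro z hord _
      rw [orderOf_eq_one_iff] at hord
      rw [hord]; exact Or.inl U.one_mem
    | coprime a b ha hb hab iha ihb =>
      intro z hord hcop'
      have h1 : orderOf (z ^ a) = b := by
        rw [orderOf_pow, hord, Nat.gcd_mul_right_left]
        exact Nat.mul_div_cancel_left b (by omega)
      have h2 : orderOf (z ^ b) = a := by
        rw [orderOf_pow, hord, Nat.gcd_mul_left_left]
        exact Nat.mul_div_cancel a (by omega)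
      rcases ihb (z ^ a) h1 (Nat.Coprime.coprime_dvd_left (Dvd.intro_left a rfl) hcop') with
        hza | hza
      · rcases iha (z ^ b) h2 (Nat.Coprime.coprime_dvd_left (Dvd.intro b rfl) hcop') with
          hzb | hzb
        · exact Or.inl (ncs_split_mem U z a b hab hza hzb)
        · exact Or.inr (hpow z b hzb)
      · exact Or.inr (hpow z a hza)
  -- the final computation
  obtain ⟨a, m', hm'q, hm'qa, ho1, ho2⟩ := ncs_qsplit x' hq
  rcases hP m' (x' ^ (q ^ a)) ho2 hm'q with hzU | ⟨hzc, hzab⟩
  · -- the `q'`-part lies in `U`, hence is central in `C(w)`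
    have hstep : Subgroup.centralizer ({x'} : Set G) ⊓ Subgroup.centralizer ({w} : Set G) =
        Subgroup.centralizer ({x' ^ m'} : Set G) ⊓ Subgroup.centralizer ({w} : Set G) := by
      ext c
      simp only [Subgroup.mem_inf, Subgroup.mem_centralizer_singleton_iff]
      constructor
      · rintro ⟨h1, h2⟩
        exact ⟨(Commute.pow_right (show Commute c x' from h1) m').eq, h2⟩
      · rintro ⟨h1, h2⟩
        refine ⟨?_, h2⟩
        have hy' : x' ^ m' ∈ Subgroup.centralizer ({c} : Set G) :=
          Subgroup.mem_centralizer_singleton_iff.mpr h1.symm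
        have hz' : x' ^ (q ^ a) ∈ Subgroup.centralizer ({c} : Set G) :=
          Subgroup.mem_centralizer_singleton_iff.mpr (hN c h2 _ hzU).symm
        have h3 := ncs_split_mem _ x' m' (q ^ a) hm'qa hy' hz'
        exact (Subgroup.mem_centralizer_singleton_iff.mp h3).symm
    have hre : (Subgroup.centralizer ({x'} : Set G)).relIndex
        (Subgroup.centralizer ({w} : Set G)) =
        (Subgroup.centralizer ({x' ^ m'} : Set G)).relIndex
        (Subgroup.centralizer ({w} : Set G)) := by
      rw [← Subgroup.inf_relIndex_right (Subgroup.centralizer ({x'} : Set G)), hstep,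
        Subgroup.inf_relIndex_right]
    rw [hre]
    have hwy : w * x' ^ m' = x' ^ m' * w :=
      ((Commute.pow_left (show Commute x' w from hx'w) m').eq).symm
    have hwq : (orderOf w).Coprime q := ((hS.U_iff w).mp hwU).2
    have hcp : (orderOf w).Coprime (orderOf (x' ^ m')) := by
      rw [ho1]; exact Nat.Coprime.pow_right a hwq
    have hC := hCop w (x' ^ m') hwy hcp
    have h5 := Subgroup.relIndex_mul_index
      (inf_le_left : Subgroup.centralizer ({w} : Set G) ⊓
        Subgroup.centralizer ({x' ^ m'} : Set G) ≤ Subgroup.centralizer ({w} : Set G))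
    rw [Subgroup.inf_relIndex_left, ← hC] at h5
    have h6 : (Subgroup.centralizer ({w} : Set G)).index = q ^ e := hw
    rw [h6] at h5
    rcases hcidx (w * x' ^ m') with h | h | h | h
    · exfalso
      have h7 : (Subgroup.centralizer ({w * x' ^ m'} : Set G)).index = 1 := h
      rw [h7] at h5
      have : q ^ e ∣ 1 := Dvd.intro_left _ h5
      have := Nat.dvd_one.mp this
      omega
    · exfalso
      have h7 : (Subgroup.centralizer ({w * x' ^ m'} : Set G)).index = n := h
      rw [h7] at h5
      have h8 : q ^ e ∣ n := Dvd.intro_left _ h5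
      exact hqn ((dvd_pow_self q he).trans h8)
    · left
      have h7 : (Subgroup.centralizer ({w * x' ^ m'} : Set G)).index = q ^ e := h
      rw [h7] at h5
      have h8 : (Subgroup.centralizer ({x' ^ m'} : Set G)).relIndex
          (Subgroup.centralizer ({w} : Set G)) * q ^ e = 1 * q ^ e := by rw [h5, one_mul]
      exact Nat.eq_of_mul_eq_mul_right (by omega) h8
    · right
      have h7 : (Subgroup.centralizer ({w * x' ^ m'} : Set G)).index = n * q ^ e := h
      rw [h7] at h5
      exact Nat.eq_of_mul_eq_mul_right (by omega) h5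
  · -- the `q'`-part has the largest class size and abelian centralizer
    right
    have heq : Subgroup.centralizer ({x'} : Set G) =
        Subgroup.centralizer ({x' ^ (q ^ a)} : Set G) := by
      apply le_antisymm
      · intro c hc
        rw [Subgroup.mem_centralizer_singleton_iff] at hc ⊢
        exact (Commute.pow_right (show Commute c x' from hc) (q ^ a)).eq
      · intro c hc
        rw [Subgroup.mem_centralizer_singleton_iff] at hc ⊢
        exact hzab c x' hc ((Commute.refl x').pow_right (q ^ a)).eq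
    rw [heq]
    exact hrel _ (hab_le _ hzab (by rw [ho2]; exact hm'q)) hzc

end Cfsg.Agent.Lib.Helper76.CS4
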